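import Cfsg.Agent.H178.RG.Defs

/-!
# S5714, TEAM RG, B3: the number of symmetric sequences with a given recurrence
-/

set_option autoImplicit false

namespace Cfsg.Agent.H127.Rg

open Polynomial Cfsg.Agent.H178.RG

section Shift

variable {F : Type} [Field F]

/-- the shift -/
def shift (F : Type) [Field F] : Module.End F (ℤ → F) where
  toFun c := fun m => c (m + 1)
  map_add' _ _ := rfl
  map_smul' _ _ := rfl

theorem shift_apply (c : ℤ → F) (m : ℤ) : shift F c m = c (m + 1) := rfl

theorem shift_pow (i : ℕ) (c : ℤ → F) (m : ℤ) : (shift F ^ i) c m = c (m + i) := by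
  induction i generalizing m with
  | zero => simp
  | succ i ih =>
    rw [pow_succ', Module.End.mul_apply, shift_apply, ih]
    congr 1
    push_cast
    ring

theorem aeval_shift (f : F[X]) (c : ℤ → F) (m : ℤ) :
    (aeval (shift F) f) c m = f.sum fun i a => a * c (m + i) := by
  rw [aeval_def, eval₂_eq_sum, Polynomial.sum_def, Polynomial.sum_def, LinearMap.sum_apply, Finset.sum_apply]
  refine Finset.sum_congr rfl fun i _ => ?_
  rw [Module.End.mul_apply, Module.algebraMap_end_apply, Pi.smul_apply, shift_pow, smul_eq_mul]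

theorem rec_iff (f : F[X]) (c : ℤ → F) :
    (∀ m : ℤ, (f.sum fun i a => a * c (m + i)) = 0) ↔ (aeval (shift F) f) c = 0 := by
  constructor
  · intro h
    funext m
    rw [aeval_shift, h, Pi.zero_apply]
  · intro h m
    rw [← aeval_shift, h, Pi.zero_apply]

/-- a sequence with recurrence `g` which vanishes at `0, ..., deg g - 1` is zero -/
theorem eq_zero_of_init {g : F[X]} (hg : g ≠ 0) (h0 : g.coeff 0 ≠ 0) {c : ℤ → F} (hc : (aeval (shift F) g) c = 0)
    (hi : ∀ i : ℕ, i < g.natDegree → c i = 0) : c = 0 := by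
  have hrec : ∀ m : ℤ, ∑ i ∈ Finset.range (g.natDegree + 1), g.coeff i * c (m + i) = 0 := by
    intro m
    have h1 := (rec_iff g c).2 hc m
    have h2 := Polynomial.sum_over_range g (f := fun (i : ℕ) (a : F) => a * c (m + i)) (fun i => zero_mul _)
    rw [h2] at h1
    exact h1
  have hlead : g.coeff g.natDegree ≠ 0 := leadingCoeff_ne_zero.2 hg
  have hpos : ∀ n : ℕ, c n = 0 := by
    intro n
    induction n using Nat.strong_induction_on with
    | _ n ih =>
      rcases Nat.lt_or_ge n g.natDegree with h | h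
      · exact hi n h
      · have h1 := hrec ((n : ℤ) - g.natDegree)
        rw [Finset.sum_range_succ, Finset.sum_eq_zero, zero_add] at h1
        · have e : (n : ℤ) - g.natDegree + g.natDegree = n := by ring
          rw [e] at h1
          exact (mul_eq_zero.1 h1).resolve_left hlead
        · intro i hi
          rw [Finset.mem_range] at hi
          have e : (n : ℤ) - g.natDegree + i = ((n - g.natDegree + i : ℕ) : ℤ) := by
            push_cast [h]
            ring
          rw [e, ih _ (by omega), mul_zero]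
  have hneg : ∀ n : ℕ, c (-(n : ℤ)) = 0 := by
    intro n
    induction n using Nat.strong_induction_on with
    | _ n ih =>
      have h1 := hrec (-(n : ℤ))
      rw [Finset.sum_range_succ', Finset.sum_eq_zero, zero_add] at h1
      · rw [Nat.cast_zero, add_zero] at h1
        exact (mul_eq_zero.1 h1).resolve_left h0
      · intro i _
        rcases Nat.lt_or_ge i n with h | h
        · have e : -(n : ℤ) + ((i + 1 : ℕ) : ℤ) = -((n - (i + 1) : ℕ) : ℤ) := by
            have : i + 1 ≤ n := h
            push_cast [this]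
            ring
          rw [e, ih _ (by omega), mul_zero]
        · have e : -(n : ℤ) + ((i + 1 : ℕ) : ℤ) = ((i + 1 - n : ℕ) : ℤ) := by
            have : n ≤ i + 1 := by omega
            push_cast [this]
            ring
          rw [e, hpos, mul_zero]
  funext m
  rw [Pi.zero_apply]
  rcases Int.eq_nat_or_neg m with ⟨n, rfl | rfl⟩
  · exact hpos n
  · exact hneg n

/-- the space of the sequences with recurrence `g` -/
noncomputable def recS (g : F[X]) : Submodule F (ℤ → F) := LinearMap.ker (aeval (shift F) g)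

theorem mem_recS {g : F[X]} {c : ℤ → F} : c ∈ recS g ↔ (aeval (shift F) g) c = 0 := LinearMap.mem_ker

theorem recS_bound [Finite F] {g : F[X]} (hg : g ≠ 0) (h0 : g.coeff 0 ≠ 0) :
    Finite (recS g) ∧ Nat.card (recS g) ≤ Nat.card F ^ g.natDegree := by
  let φ : recS g → (Fin g.natDegree → F) := fun c i => c.1 (i : ℕ)
  have hφ : Function.Injective φ := by
    intro c d hcd
    apply Subtype.ext
    rw [← sub_eq_zero]
    refine eq_zero_of_init hg h0 ?_ ?_
    · rw [map_sub, mem_recS.1 c.2, mem_recS.1 d.2, sub_zero]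
    · intro i hi
      have := congrFun hcd ⟨i, hi⟩
      rw [Pi.sub_apply]
      exact sub_eq_zero.2 this
  refine ⟨Finite.of_injective φ hφ, ?_⟩
  have h1 := Nat.card_le_card_of_injective φ hφ
  rwa [Nat.card_fun, Nat.card_eq_fintype_card (α := Fin g.natDegree), Fintype.card_fin] at h1

theorem recS_mono {f g : F[X]} (h : f ∣ g) {c : ℤ → F} (hc : c ∈ recS f) : c ∈ recS g := by
  obtain ⟨k, rfl⟩ := h
  rw [mem_recS, mul_comm, map_mul, Module.End.mul_apply, mem_recS.1 hc, map_zero]

theorem recS_bezout {f g d : F[X]} (h : ∃ u v, u * f + v * g = d) {c : ℤ → F} (hf : c ∈ recS f) (hg : c ∈ recS g) :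
    c ∈ recS d := by
  obtain ⟨u, v, rfl⟩ := h
  rw [mem_recS, map_add, map_mul, map_mul, LinearMap.add_apply, Module.End.mul_apply, Module.End.mul_apply,
    mem_recS.1 hf, mem_recS.1 hg, map_zero, map_zero, add_zero]

theorem recS_coprime {f g : F[X]} (h : IsCoprime f g) {c : ℤ → F} (hf : c ∈ recS f) (hg : c ∈ recS g) : c = 0 := by
  have := recS_bezout h hf hg
  rwa [mem_recS, map_one, Module.End.one_apply] at this

theorem shift_recS {g : F[X]} {c : ℤ → F} (hc : c ∈ recS g) : shift F c ∈ recS g := by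
  have h1 : (aeval (shift F) g) * (aeval (shift F) (X : F[X])) = (aeval (shift F) (X : F[X])) * (aeval (shift F) g) := by
    rw [← map_mul, ← map_mul, mul_comm]
  rw [aeval_X] at h1
  rw [mem_recS, ← Module.End.mul_apply, h1, Module.End.mul_apply, mem_recS.1 hc, map_zero]

end Shift

section Sym

variable {F : Type} [Field F] [Fintype F]

/-- `s` is a power of the characteristic -/
theorem exists_char {s : ℕ} (hs : s ^ 2 = Fintype.card F ∨ s = 1) :
    ∃ (p k : ℕ) (_ : Fact p.Prime) (_ : CharP F p), s = p ^ k := by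
  obtain ⟨p, hp⟩ := CharP.exists F
  obtain ⟨n, hpp, hn⟩ := FiniteField.card F p
  rcases hs with hs | rfl
  · obtain ⟨k, -, hk⟩ := (Nat.dvd_prime_pow hpp).1 (show s ∣ p ^ (n : ℕ) by rw [← hn, ← hs]; exact dvd_pow_self s two_ne_zero)
    exact ⟨p, k, ⟨hpp⟩, hp, hk⟩
  · exact ⟨p, 0, ⟨hpp⟩, hp, (pow_zero p).symm⟩

theorem sum_pow_s {s : ℕ} (hs : s ^ 2 = Fintype.card F ∨ s = 1) {κ : Type} (t : Finset κ) (a : κ → F) :
    (∑ i ∈ t, a i) ^ s = ∑ i ∈ t, a i ^ s := by
  obtain ⟨p, k, h1, h2, rfl⟩ := exists_char hs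
  exact sum_pow_char_pow p k t a

theorem sub_pow_s {s : ℕ} (hs : s ^ 2 = Fintype.card F ∨ s = 1) (a b : F) : (a - b) ^ s = a ^ s - b ^ s := by
  obtain ⟨p, k, h1, h2, rfl⟩ := exists_char hs
  exact sub_pow_char_pow a b k

theorem s_pos {s : ℕ} (hs : s ^ 2 = Fintype.card F ∨ s = 1) : 0 < s := by
  rcases hs with hs | rfl
  · rw [Nat.pos_iff_ne_zero]
    rintro rfl
    rw [zero_pow two_ne_zero] at hs
    exact Fintype.card_ne_zero hs.symm
  · exact one_pos

/-- the symmetric sequences have the dual recurrence -/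
theorem mem_dual {s : ℕ} (hs : s ^ 2 = Fintype.card F ∨ s = 1) {ε : F} (hε : ε ≠ 0) {f : F[X]} {c : ℤ → F}
    (hc : c ∈ SymSeq s ε f) : c ∈ recS (dualP s f) := by
  obtain ⟨h1, h2⟩ := hc
  have h3 : ∀ j : ℤ, c j ^ s = ε⁻¹ * c (-j) := by
    intro j
    rw [h2 j, ← mul_assoc, inv_mul_cancel₀ hε, one_mul]
  have h4 : ∀ m : ℤ, ∑ i ∈ f.support, f.coeff i ^ s * c (m + (f.natDegree - i : ℕ)) = 0 := by
    intro m
    have h5 := h1 (-m - f.natDegree)
    rw [Polynomial.sum_def] at h5
    have h6 : ε * (∑ i ∈ f.support, f.coeff i * c (-m - f.natDegree + i)) ^ s = ε * (0 : F) ^ s := by rw [h5]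
    rw [zero_pow (s_pos hs).ne', mul_zero, sum_pow_s hs, Finset.mul_sum] at h6
    rw [← h6]
    refine Finset.sum_congr rfl fun i hi => ?_
    have h7 : i ≤ f.natDegree := le_natDegree_of_mem_supp i hi
    rw [mul_pow, h3]
    have e : -(-m - (f.natDegree : ℤ) + i) = m + (f.natDegree - i : ℕ) := by
      push_cast [h7]
      ring
    rw [e]
    field_simp
  rw [mem_recS, dualP, map_mul, Module.End.mul_apply]
  have h5 : (aeval (shift F) (f.sum fun i a => C (a ^ s) * X ^ (f.natDegree - i))) c = 0 := by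
    funext m
    rw [Polynomial.sum_def, map_sum, LinearMap.sum_apply, Finset.sum_apply, Pi.zero_apply, ← h4 m]
    refine Finset.sum_congr rfl fun i _ => ?_
    rw [map_mul, aeval_C, aeval_X_pow, Module.End.mul_apply, Module.algebraMap_end_apply, Pi.smul_apply,
      shift_pow, smul_eq_mul]
  rw [h5, map_zero]

theorem sub_mem_symSeq {s : ℕ} (hs : s ^ 2 = Fintype.card F ∨ s = 1) {ε : F} {f : F[X]} {c d : ℤ → F}
    (hc : c ∈ SymSeq s ε f) (hd : d ∈ SymSeq s ε f) : c - d ∈ SymSeq s ε f := by
  refine ⟨?_, fun i => ?_⟩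
  · rw [rec_iff, map_sub, (rec_iff f c).1 hc.1, (rec_iff f d).1 hd.1, sub_zero]
  · rw [Pi.sub_apply, Pi.sub_apply, hc.2, hd.2, sub_pow_s hs, mul_sub]

/-- **B3** -/
theorem card_symSeq {s : ℕ} {ε : F} (hε : ε ≠ 0) {f : F[X]} (hf : f.Monic) (h0 : f.coeff 0 ≠ 0) {e : ℕ}
    (he : ∀ g : F[X], g ∣ f → g ∣ dualP s f → g.natDegree ≤ e)
    (hs : s ^ 2 = Fintype.card F ∨ (s = 1 ∧ IsCoprime f (X ^ 2 - 1))) :
    (SymSeq s ε f).Finite ∧ ((SymSeq s ε f).ncard : ℝ) ≤ √(Fintype.card F) ^ e := by
  classical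
  have hs' : s ^ 2 = Fintype.card F ∨ s = 1 := hs.imp_right And.left
  set g := EuclideanDomain.gcd f (dualP s f) with hg
  have hgf : g ∣ f := EuclideanDomain.gcd_dvd_left _ _
  have hgd : g ∣ dualP s f := EuclideanDomain.gcd_dvd_right _ _
  have hf0 : f ≠ 0 := hf.ne_zero
  have hg0 : g ≠ 0 := fun h => hf0 (by rw [h] at hgf; exact zero_dvd_iff.1 hgf)
  have hgc : g.coeff 0 ≠ 0 := by
    intro h
    apply h0
    obtain ⟨k, hk⟩ := hgf
    rw [hk, mul_coeff_zero, h, zero_mul]
  have hge : g.natDegree ≤ e := he g hgf hgd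
  have hmem : ∀ c ∈ SymSeq s ε f, c ∈ recS g := by
    intro c hc
    refine recS_bezout ⟨EuclideanDomain.gcdA f (dualP s f), EuclideanDomain.gcdB f (dualP s f), ?_⟩
      (mem_recS.2 ((rec_iff f c).1 hc.1)) (mem_dual hs' hε hc)
    rw [hg, EuclideanDomain.gcd_eq_gcd_ab, mul_comm f, mul_comm (dualP s f)]
  obtain ⟨hfin, hcard⟩ := recS_bound hg0 hgc
  have hFin : (SymSeq s ε f).Finite := Set.Finite.subset (Set.toFinite (recS g : Set (ℤ → F))) hmem
  refine ⟨hFin, ?_⟩
  have hF : Finite (SymSeq s ε f) := hFin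
  -- the injection
  obtain ⟨Φ, hΦ⟩ : ∃ Φ : SymSeq s ε f × SymSeq s ε f → recS g, Function.Injective Φ := by
    rcases hs with hs | ⟨rfl, hcop⟩
    · -- hermitian case
      obtain ⟨θ, hθ⟩ : ∃ θ : F, θ ^ s ≠ θ := by
        by_contra hcon
        push Not at hcon
        have hs2 : 1 < s := by
          by_contra hlt
          have h1 : s ≤ 1 := by omega
          have h2 : s ^ 2 ≤ 1 := by
            calc s ^ 2 ≤ 1 ^ 2 := Nat.pow_le_pow_left h1 2
              _ = 1 := one_pow 2
          have h3 := Fintype.one_lt_card (α := F)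
          omega
        have h1 : (X ^ s - X : F[X]) ≠ 0 := FiniteField.X_pow_card_sub_X_ne_zero F hs2
        have h2 : (X ^ s - X : F[X]).natDegree = s := FiniteField.X_pow_card_sub_X_natDegree_eq F hs2
        have h3 : (Finset.univ : Finset F).val ≤ (X ^ s - X : F[X]).roots := by
          rw [Multiset.le_iff_subset (Finset.univ : Finset F).nodup]
          intro a _
          rw [mem_roots h1, IsRoot.def, eval_sub, eval_pow, eval_X, hcon a, sub_self]
        have h4 := Multiset.card_le_card h3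
        have h5 := card_roots' (X ^ s - X : F[X])
        rw [h2] at h5
        have h6 : Fintype.card F ≤ s := h4.trans h5
        rw [← hs] at h6
        nlinarith
      refine ⟨fun a => ⟨(a.1 : ℤ → F) + θ • (a.2 : ℤ → F), add_mem (hmem _ a.1.2) (Submodule.smul_mem _ _ (hmem _ a.2.2))⟩, ?_⟩
      rintro ⟨⟨c, hc⟩, ⟨c', hc'⟩⟩ ⟨⟨d, hd⟩, ⟨d', hd'⟩⟩ h
      have h1 : c + θ • c' = d + θ • d' := congrArg Subtype.val h
      have ha := sub_mem_symSeq hs' hc hd
      have hb := sub_mem_symSeq hs' hd' hc'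
      have h2 : ∀ i, (c - d) i = θ * (d' - c') i := by
        intro i
        have := congrFun h1 i
        simp only [Pi.add_apply, Pi.smul_apply, smul_eq_mul] at this
        simp only [Pi.sub_apply]
        linear_combination this
      have h3 : d' - c' = 0 := by
        funext i
        have e1 := ha.2 i
        have e2 := hb.2 i
        rw [h2, h2, e2, mul_pow] at e1
        have e3 : (θ ^ s - θ) * (ε * (d' - c') i ^ s) = 0 := by linear_combination -e1
        have e4 := (mul_eq_zero.1 e3).resolve_left (sub_ne_zero.2 hθ)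
        exact pow_eq_zero_iff (s_pos hs').ne' |>.1 ((mul_eq_zero.1 e4).resolve_left hε)
      have h4 : c - d = 0 := by
        funext i
        rw [h2, h3, Pi.zero_apply, mul_zero]
      rw [sub_eq_zero] at h3 h4
      subst h3 h4
      rfl
    · -- bilinear case
      refine ⟨fun a => ⟨(a.1 : ℤ → F) + shift F (a.2 : ℤ → F), add_mem (hmem _ a.1.2) (shift_recS (hmem _ a.2.2))⟩, ?_⟩
      rintro ⟨⟨c, hc⟩, ⟨c', hc'⟩⟩ ⟨⟨d, hd⟩, ⟨d', hd'⟩⟩ h
      have h1 : c + shift F c' = d + shift F d' := congrArg Subtype.val h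
      have ha := sub_mem_symSeq hs' hc hd
      have hb := sub_mem_symSeq hs' hd' hc'
      have h2 : ∀ i, (c - d) i = (d' - c') (i + 1) := by
        intro i
        have := congrFun h1 i
        simp only [Pi.add_apply, shift_apply] at this
        simp only [Pi.sub_apply]
        linear_combination this
      have h3 : d' - c' = 0 := by
        refine recS_coprime hcop (mem_recS.2 ((rec_iff f _).1 hb.1)) ?_
        have e0 : aeval (shift F) (X ^ 2 - 1 : F[X]) = shift F ^ 2 - 1 := by rw [map_sub, map_one, aeval_X_pow]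
        rw [mem_recS, e0]
        funext i
        rw [LinearMap.sub_apply, Pi.sub_apply, shift_pow, Module.End.one_apply, Pi.zero_apply]
        have e1 := ha.2 (i + 1)
        rw [h2, h2, pow_one] at e1
        have e2 := hb.2 i
        rw [pow_one] at e2
        have e3 : -(i + 1) + 1 = -i := by ring
        rw [e3, e2] at e1
        have e4 := mul_left_cancel₀ hε e1
        have e5 : i + 1 + 1 = i + ((2 : ℕ) : ℤ) := by push_cast; ring
        rw [e5] at e4
        rw [← e4, sub_self]
      have h4 : c - d = 0 := by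
        funext i
        rw [h2, h3, Pi.zero_apply, Pi.zero_apply]
      rw [sub_eq_zero] at h3 h4
      subst h3 h4
      rfl
  have h1 := Nat.card_le_card_of_injective Φ hΦ
  rw [Nat.card_prod] at h1
  have h2 : (SymSeq s ε f).ncard * (SymSeq s ε f).ncard ≤ Fintype.card F ^ e := by
    rw [← Nat.card_coe_set_eq]
    refine h1.trans (hcard.trans ?_)
    rw [Nat.card_eq_fintype_card]
    exact Nat.pow_le_pow_right Fintype.card_pos hge
  have h3 : ((SymSeq s ε f).ncard : ℝ) ^ 2 ≤ (√(Fintype.card F : ℝ) ^ e) ^ 2 := by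
    rw [← pow_mul, mul_comm e 2, pow_mul, Real.sq_sqrt (by positivity), sq]
    exact_mod_cast h2
  exact le_of_sq_le_sq h3 (by positivity)

end Sym

end Cfsg.Agent.H127.Rg
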